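import Cfsg.Agent.BpRed.Final
import Cfsg.Agent.Schreier.Assembly
import Cfsg.Agent.S0205
import Cfsg.Agent.S1727

/-!
# S1332 from the rows, with S0205, S1727 and the Schreier property plugged in (helper65)
-/

set_option autoImplicit false

namespace Cfsg.Agent.BpRed.Inst

open Subgroup Cfsg Cfsg.Agent.BpTab

universe u

/-- **S1332 from the rows and S0000.** -/
theorem s1332 (R : ∀ q : ℕ, q.Prime → q ≠ 2 → Rows.{u} q)
    (hkn : ∀ (X : Type u) [Group X] [Finite X] [IsSimpleGroup X], IsKnownSimple' X)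
    {G : Type u} [Group G] [Finite G] (p : ℕ) [Fact p.Prime] (P : Subgroup G) (hP : IsPGroup p ↥P) :
    (pLayer p ↥(normalizer (P : Set G))).map (normalizer (P : Set G)).subtype ≤ pLayer p G ∧
      (pPrimeCore p G = ⊥ →
        ⁅pLayer p ↥(normalizer (P : Set G)), pPrimeCore p ↥(normalizer (P : Set G))⁆ = ⊥) :=
  BpRed.s1332 Schreier.Assembly.known (fun _ _ _ h => S0205.result h) (fun _ _ _ hO t ht => S1727.result hO t ht)
    R hkn p P hP

end Cfsg.Agent.BpRed.Inst
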